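import Groth.Agent.Flat2F.MaxLocus
import Groth.Agent.Flat2F.MaxAffine
import Groth.Agent.S0593

/-!
Fibre powers of an affine morphism with affine source over a separated base, and affineness of the
maximal locus of the fibre integral of a positive weighting.
-/

set_option autoImplicit false
universe u

namespace Groth.Agent.Old.H21.FibrePowSep

open AlgebraicGeometry CategoryTheory Limits Groth.Agent.Flat2F Flat2F.FibreIntegral Flat2F.GeomPts
  Flat2F.ResSplit Flat2F.Split Flat2F.WeightLoc Flat2F.FibrePow Flat2F.MaxLocus Flat2F.MaxAffine Topology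

variable {X Y P Q : Scheme.{u}}

/-- Fibre powers (positive exponent) of an affine morphism `f : X ⟶ Y` with `X` affine. -/
theorem exists_pow' (f : X ⟶ Y) [IsAffine X] [IsAffineHom f] (W : Y.Opens) (hW : UCW W f) (n : ℕ) :
    ∃ (P : Scheme.{u}) (p : P ⟶ Y) (pr : Fin (n + 1) → (P ⟶ X)), IsAffine P ∧ IsAffineHom p ∧
      UCW W p ∧ (∀ j, pr j ≫ f = p) ∧ ∀ (Z : Scheme.{u}) (q : Z ⟶ Y) (t : Fin (n + 1) → (Z ⟶ X)),
        (∀ j, t j ≫ f = q) → ∃ m : Z ⟶ P, m ≫ p = q ∧ ∀ j, m ≫ pr j = t j := by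
  induction n with
  | zero =>
    refine ⟨X, f, fun _ => 𝟙 X, inferInstance, inferInstance, hW, fun j => Category.id_comp _, ?_⟩
    intro Z q t ht
    refine ⟨t 0, ht 0, fun j => ?_⟩
    obtain rfl : j = 0 := Fin.ext (by omega)
    exact Category.comp_id _
  | succ n ih =>
    obtain ⟨P, p, pr, hP, hp, hpW, hpr, hu⟩ := ih
    refine ⟨pullback f p, pullback.snd f p ≫ p, Fin.cons (pullback.fst f p)
      (fun j => pullback.snd f p ≫ pr j), ?_, inferInstance, ?_, ?_, ?_⟩
    · exact isAffine_of_isAffineHom (pullback.snd f p)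
    · exact UCW.comp (UCW.baseChange hW (IsPullback.of_hasPullback f p)) hpW
    · intro j
      refine Fin.cases ?_ (fun j => ?_) j
      · simp [pullback.condition]
      · simp [hpr j]
    · intro Z q t ht
      obtain ⟨m, hm, hm'⟩ := hu Z q (fun j => t j.succ) (fun j => ht j.succ)
      refine ⟨pullback.lift (t 0) m (by rw [ht, hm]), ?_, ?_⟩
      · rw [pullback.lift_snd_assoc, hm]
      · intro j
        refine Fin.cases ?_ (fun j => ?_) j
        · rw [Fin.cons_zero, pullback.lift_fst]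
        · rw [Fin.cons_succ, pullback.lift_snd_assoc, hm']

lemma fibreIntegral_nonneg (f : X ⟶ Y) [LocallyQuasiFinite f] (w : X → ℤ) (hpos : ∀ x, 0 ≤ w x)
    (y : Y) : 0 ≤ MoreMor.fibreIntegral f w y := by
  obtain ⟨K, _, _, ω, rfl⟩ := exists_geometric_point Y y
  rw [fibreIntegral_top]
  exact finsum_nonneg fun s => finsum_nonneg fun _ => hpos _

lemma fibreIntegral_pos (f : X ⟶ Y) [LocallyQuasiFinite f] [QuasiCompact f] (w : X → ℤ)
    (hpos : ∀ x, 0 < w x) (x : X) : 0 < MoreMor.fibreIntegral f w (f x) := by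
  obtain ⟨K, _, _, ω, hω⟩ := exists_geometric_point Y (f x)
  obtain ⟨s, hs, hsx⟩ := exists_lift f ω x hω.symm
  rw [← hω, fibreIntegral_top, finsum_mem_eq_finite_toFinset_sum _ (finite_L_top f ω)]
  refine Finset.sum_pos (fun s _ => hpos _) ⟨s, ?_⟩
  rw [Set.Finite.mem_toFinset]
  exact ⟨hs, trivial⟩

/-- The maximal locus of the fibre integral of a positive weighting is open and affine: `X` affine,
`f : X ⟶ Y` affine and surjective. -/
theorem isAffineOpen_max (f : X ⟶ Y) [LocallyQuasiFinite f] [LocallyOfFiniteType f] [Surjective f]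
    [IsAffine X] [IsAffineHom f] (w : X → ℤ) (hw : MoreMor.IsWeighting f w) (hpos : ∀ x, 0 < w x) (d : ℤ)
    (hmax : ∀ y : Y, MoreMor.fibreIntegral f w y ≤ d) (hatt : ∃ y : Y, MoreMor.fibreIntegral f w y = d) :
    ∃ hYd : IsOpen {y : Y | MoreMor.fibreIntegral f w y = d},
      IsAffineOpen (⟨{y : Y | MoreMor.fibreIntegral f w y = d}, hYd⟩ : Y.Opens) := by
  obtain ⟨m, rfl⟩ : ∃ n : ℕ, d = (n + 1 : ℕ) := by
    obtain ⟨y, rfl⟩ := hatt
    obtain ⟨x, rfl⟩ := f.surjective y
    have := fibreIntegral_pos f w hpos x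
    obtain ⟨n, hn⟩ := Int.eq_ofNat_of_zero_le this.le
    rw [hn] at this ⊢
    refine ⟨n - 1, ?_⟩
    have : 0 < n := by exact_mod_cast this
    congr 1
    omega
  obtain ⟨hopen, hW⟩ := isOpen_and_UCW f w hw hpos ((m + 1 : ℕ) : ℤ) hmax
  let W : Y.Opens := ⟨{y : Y | MoreMor.fibreIntegral f w y = ((m + 1 : ℕ) : ℤ)}, hopen⟩
  obtain ⟨P, p, pr, hP, hp, hpW, hpr, hu⟩ := exists_pow' f W hW m
  have hTcl : IsClosed (T w pr) := isClosed_T f hw (fun x => (hpos x).le) p pr hpr
  have hTim := image_T f hpos hmax p pr hpr hu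
  let I := Scheme.IdealSheafData.vanishingIdeal (X := P) ⟨T w pr, hTcl⟩
  have hr : Set.range I.subschemeι = T w pr := by
    rw [Scheme.IdealSheafData.range_subschemeι]
    simp [I]
  have hsub : Set.range (I.subschemeι ≫ p) ⊆ Set.range W.ι := by
    rintro _ ⟨z, rfl⟩
    rw [Scheme.Opens.range_ι, Scheme.Hom.comp_apply]
    have : I.subschemeι z ∈ T w pr := hr ▸ ⟨z, rfl⟩
    exact hTim.subset ⟨_, this, rfl⟩
  let t : I.subscheme ⟶ W := IsOpenImmersion.lift W.ι (I.subschemeι ≫ p) hsub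
  have ht : t ≫ W.ι = I.subschemeι ≫ p := IsOpenImmersion.lift_fac _ _ _
  have haff : IsAffine I.subscheme := isAffine_of_isAffineHom I.subschemeι
  have hsurj : Surjective t := by
    refine ⟨fun y => ?_⟩
    have h1 : W.ι y ∈ p '' T w pr := by
      rw [hTim]
      exact ι_apply_mem W y
    obtain ⟨z, hz, hzy⟩ := h1
    rw [← hr] at hz
    obtain ⟨z, rfl⟩ := hz
    refine ⟨z, ?_⟩
    apply W.ι.isOpenEmbedding.injective
    rw [← Scheme.Hom.comp_apply, ht, Scheme.Hom.comp_apply, hzy]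
  have huc : UniversallyClosed t := UCW_id_lift W (I.subschemeι ≫ p)
      (UCW.comp (UCW.of_isClosedImmersion _ _) hpW) t ht
  exact ⟨hopen, Groth.Agent.S0593.result _ _ t⟩

end Groth.Agent.Old.H21.FibrePowSep
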