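import Groth.Agent.Old.H21.FibrePowSep
import Groth.Agent.Old.H13.WeightBC

/-!
Adding an open affine stratum to an affine stratification; the affine stratification number of the
target of a surjective quasi-finite morphism with a positive weighting.
-/

set_option autoImplicit false
universe u

namespace Groth.Agent.Old.H21.StratSucc

open AlgebraicGeometry CategoryTheory Limits Groth.Agent.Flat2F Flat2F.FibreIntegral Flat2F.GeomPts
  Flat2F.ResSplit Flat2F.Split Flat2F.WeightLoc Topology

variable {X Y Z : Scheme.{u}}

/-- An affine scheme has an affine stratification with one stratum. -/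
lemma hasAffineStratification_zero (Y : Scheme.{u}) [IsAffine Y] :
    MoreMor.HasAffineStratification Y 0 := by
  refine ⟨fun _ => 0, fun i => ?_, fun i => ⟨Y, 𝟙 Y, inferInstance, inferInstance, inferInstance, ?_⟩⟩
  · convert isClosed_univ
    ext x
    simp
  · ext x
    simp only [Set.mem_range, Set.mem_ofPred_eq]
    exact ⟨fun _ => Subsingleton.elim (α := Fin 1) _ _, fun _ => ⟨x, rfl⟩⟩

/-- Adding an open affine stratum. -/
theorem hasAffineStratification_succ (W : Y.Opens) (hW : IsAffineOpen W) (hW' : IsAffineHom W.ι)
    (i : Z ⟶ Y) [IsClosedImmersion i] (hi : Set.range i = (W : Set Y)ᶜ) (n : ℕ)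
    (hZ : MoreMor.HasAffineStratification Z n) : MoreMor.HasAffineStratification Y (n + 1) := by
  classical
  obtain ⟨s, hs, hst⟩ := hZ
  have hinj : Function.Injective i := i.isClosedEmbedding.injective
  have hmem : ∀ y : Y, y ∉ W → ∃ z : Z, i z = y := fun y hy => by
    have : y ∈ Set.range i := by rw [hi]; exact hy
    exact this
  have hnot : ∀ z : Z, i z ∉ W := fun z hz => by
    have : i z ∈ (W : Set Y)ᶜ := by rw [← hi]; exact ⟨z, rfl⟩
    exact this hz
  let t : Y → Fin (n + 1 + 1) := fun y =>
    if h : y ∈ W then Fin.last (n + 1) else (s (hmem y h).choose).castSucc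
  have ht1 : ∀ y ∈ W, t y = Fin.last (n + 1) := fun y hy => by simp only [t]; rw [dif_pos hy]
  have ht2 : ∀ z : Z, t (i z) = (s z).castSucc := fun z => by
    simp only [t]
    rw [dif_neg (hnot z)]
    congr 2
    exact hinj (hmem (i z) (hnot z)).choose_spec
  refine ⟨t, fun j => ?_, fun j => ?_⟩
  · induction j using Fin.lastCases with
    | last =>
      convert isClosed_univ
      ext y
      simp [Fin.le_last]
    | cast j =>
      have : {y : Y | t y ≤ j.castSucc} = i '' {z : Z | s z ≤ j} := by
        ext y
        simp only [Set.mem_ofPred_eq, Set.mem_image]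
        constructor
        · intro hy
          have hyW : y ∉ W := by
            intro hyW
            rw [ht1 y hyW] at hy
            exact absurd hy (not_le.mpr (Fin.castSucc_lt_last j))
          obtain ⟨z, rfl⟩ := hmem y hyW
          rw [ht2, Fin.castSucc_le_castSucc_iff] at hy
          exact ⟨z, hy, rfl⟩
        · rintro ⟨z, hz, rfl⟩
          rw [ht2, Fin.castSucc_le_castSucc_iff]
          exact hz
      rw [this]
      exact i.isClosedEmbedding.isClosedMap _ (hs j)
  · induction j using Fin.lastCases with
    | last =>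
      refine ⟨W, W.ι, inferInstance, hW, hW', ?_⟩
      rw [Scheme.Opens.range_ι]
      ext y
      simp only [Set.mem_ofPred_eq]
      constructor
      · exact ht1 y
      · intro hy
        by_contra hyW
        obtain ⟨z, rfl⟩ := hmem y hyW
        rw [ht2] at hy
        exact absurd hy (Fin.castSucc_lt_last _).ne
    | cast j =>
      obtain ⟨T, ι, h1, h2, h3, h4⟩ := hst j
      refine ⟨T, ι ≫ i, inferInstance, h2, inferInstance, ?_⟩
      ext y
      simp only [Set.mem_range, Set.mem_ofPred_eq, Scheme.Hom.comp_apply]
      constructor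
      · rintro ⟨z, rfl⟩
        rw [ht2]
        have : ι z ∈ {x | s x = j} := h4 ▸ ⟨z, rfl⟩
        rw [this]
      · intro hy
        have hyW : y ∉ W := by
          intro hyW
          rw [ht1 y hyW] at hy
          exact absurd hy.symm (Fin.castSucc_lt_last j).ne
        obtain ⟨z, rfl⟩ := hmem y hyW
        rw [ht2] at hy
        have : z ∈ Set.range ι := by rw [h4]; exact Fin.castSucc_injective _ hy
        obtain ⟨x, rfl⟩ := this
        exact ⟨x, rfl⟩

/-- The affine stratification number and the number of values of the fibre integral. -/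
theorem main (k : ℕ) : ∀ {X Y : Scheme.{u}} (f : X ⟶ Y) [Surjective f] [LocallyQuasiFinite f]
    [LocallyOfFiniteType f] [QuasiCompact f] [IsAffine X] [Y.IsSeparated]
    (w : X → ℤ) (_ : MoreMor.IsWeighting f w) (_ : ∀ x, 0 < w x)
    (_ : (Set.range (MoreMor.fibreIntegral f w)).ncard = k + 1)
    (_ : (Set.range (MoreMor.fibreIntegral f w)).Finite),
    MoreMor.HasAffineStratification Y k := by
  induction k with
  | zero =>
    intro X Y f _ _ _ _ _ _ w hw hpos hk hkfin
    have hfa : IsAffineHom f := Groth.Agent.S0593.isAffineHom_of_isSeparated f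
    obtain ⟨d, hd⟩ := Set.ncard_eq_one.mp hk
    have hall : ∀ y : Y, MoreMor.fibreIntegral f w y = d := fun y => by
      have : MoreMor.fibreIntegral f w y ∈ Set.range (MoreMor.fibreIntegral f w) := ⟨y, rfl⟩
      rw [hd] at this
      exact this
    have hatt : ∃ y : Y, MoreMor.fibreIntegral f w y = d := by
      have : d ∈ Set.range (MoreMor.fibreIntegral f w) := by rw [hd]; rfl
      exact this
    obtain ⟨h1, h2⟩ := FibrePowSep.isAffineOpen_max f w hw hpos d (fun y => (hall y).le) hatt
    have : (⟨{y : Y | MoreMor.fibreIntegral f w y = d}, h1⟩ : Y.Opens) = ⊤ := by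
      ext y
      simp [hall y]
    rw [this] at h2
    have : IsAffine ((⊤ : Y.Opens) : Scheme.{u}) := h2
    have : IsAffine Y := .of_isIso Y.topIso.inv
    exact hasAffineStratification_zero Y
  | succ k ih =>
    intro X Y f _ _ _ _ _ _ w hw hpos hk hkfin
    have hfa : IsAffineHom f := Groth.Agent.S0593.isAffineHom_of_isSeparated f
    set S := Set.range (MoreMor.fibreIntegral f w) with hS
    have hne : S.Nonempty := by
      rw [← Set.ncard_pos hkfin, hk]; omega
    obtain ⟨d, hdS, hd⟩ := S.exists_max_image id hkfin hne
    obtain ⟨hopen, hWaff⟩ := FibrePowSep.isAffineOpen_max f w hw hpos d (fun y => hd _ ⟨y, rfl⟩) hdS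
    let W : Y.Opens := ⟨{y : Y | MoreMor.fibreIntegral f w y = d}, hopen⟩
    have : IsAffine W := hWaff
    have hWι : IsAffineHom W.ι := Groth.Agent.S0593.isAffineHom_of_isSeparated W.ι
    let I := Scheme.IdealSheafData.vanishingIdeal (X := Y) ⟨(W : Set Y)ᶜ, W.2.isClosed_compl⟩
    have hr : Set.range I.subschemeι = (W : Set Y)ᶜ := by
      rw [Scheme.IdealSheafData.range_subschemeι]
      simp [I]
    refine hasAffineStratification_succ W hWaff hWι I.subschemeι hr k ?_
    have hc := IsPullback.of_hasPullback f I.subschemeι
    have hXa : IsAffine (pullback f I.subschemeι) := isAffine_of_isAffineHom (pullback.fst f I.subschemeι)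
    have hsepZ : I.subscheme.IsSeparated := by
      have : IsSeparated (I.subschemeι ≫ terminal.from Y) := inferInstance
      rw [Subsingleton.elim (I.subschemeι ≫ terminal.from Y) (terminal.from _)] at this
      exact ⟨this⟩
    have hval : ∀ z, MoreMor.fibreIntegral (pullback.snd f I.subschemeι)
        (fun x => w (pullback.fst f I.subschemeι x)) z = MoreMor.fibreIntegral f w (I.subschemeι z) :=
      fun z => fibreIntegral_baseChange f _ _ _ hc w z
    have hrange : Set.range (MoreMor.fibreIntegral (pullback.snd f I.subschemeι)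
        (fun x => w (pullback.fst f I.subschemeι x))) = S \ {d} := by
      ext n
      constructor
      · rintro ⟨z, rfl⟩
        rw [hval]
        refine ⟨⟨_, rfl⟩, fun hz => ?_⟩
        have : I.subschemeι z ∈ (W : Set Y)ᶜ := hr ▸ ⟨z, rfl⟩
        exact this hz
      · rintro ⟨⟨y, rfl⟩, hy⟩
        have : y ∈ Set.range I.subschemeι := by rw [hr]; exact hy
        obtain ⟨z, rfl⟩ := this
        exact ⟨z, hval z⟩
    refine ih (pullback.snd f I.subschemeι) (fun x => w (pullback.fst f I.subschemeι x))
      (Groth.Agent.Old.H13.WeightBC.isWeighting_baseChange hc hw) (fun x => hpos _) ?_ ?_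
    · rw [hrange, Set.ncard_diff_singleton_of_mem hdS, hk]
      rfl
    · rw [hrange]
      exact hkfin.subset Set.diff_subset

end Groth.Agent.Old.H21.StratSucc
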